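import Cfsg.Agent.SJ1.Defs
import Cfsg.Agent.StdU3.Base
import Cfsg.Agent.StdSz.Red
import Cfsg.Agent.Known.FinFieldAut

/-!
# Standard subgroups of type `L₂(2ᵃ)`: the structure of `C(t)`
-/

set_option autoImplicit false

namespace Cfsg.Lib.SJ1

open Subgroup Cfsg.Lib.Gold Cfsg.Lib.Trans Cfsg.Lib.StdSz
open scoped commutatorElement

variable {G : Type*} [Group G] [Finite G] {F : Type*} [Field F]

theorem Mod.t_NsV (M : Mod G F) : M.t ∈ Ns M.V := M.mem_Ns_V M.t_v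

theorem Mod.mem_W' (M : Mod G F) {x : G} : x ∈ M.W ↔ x ∈ M.V ∨ M.t * x ∈ M.V :=
  StdU3.mem_sup_invol M.t_sq M.t_NsV

theorem Mod.mem_W (M : Mod G F) {x : G} : x ∈ M.W ↔ ∃ b, x = M.v b ∨ x = M.t * M.v b := by
  rw [M.mem_W']
  constructor
  · rintro (⟨b, h⟩ | ⟨b, h⟩)
    · exact ⟨b, Or.inl h⟩
    · exact ⟨b, Or.inr (by rw [← h, M.tt_mul])⟩
  · rintro ⟨b, h | h⟩
    · exact Or.inl ⟨b, h⟩
    · exact Or.inr ⟨b, by rw [h, M.tt_mul]⟩

omit [Finite G] in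
theorem Mod.V_le_W (M : Mod G F) : M.V ≤ M.W := le_sup_left

omit [Finite G] in
theorem Mod.v_mem_W (M : Mod G F) (b : F) : M.v b ∈ M.W := M.V_le_W (M.v_mem b)

omit [Finite G] in
theorem Mod.t_mem_W (M : Mod G F) : M.t ∈ M.W := mem_sup_right (mem_zpowers _)

omit [Finite G] in
theorem Mod.tv_mem_W (M : Mod G F) (b : F) : M.t * M.v b ∈ M.W :=
  M.W.mul_mem M.t_mem_W (M.v_mem_W b)

omit [Finite G] in
theorem Mod.tv_sq (M : Mod G F) (b : F) : M.t * M.v b * (M.t * M.v b) = 1 := by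
  rw [(M.t_v b).symm.mul_mul_mul_comm, M.t_sq, M.v_sq, one_mul]

omit [Finite G] in
theorem Mod.tv_not_mem_V (M : Mod G F) (b : F) : M.t * M.v b ∉ M.V := fun h =>
  M.t_not_mem_V ((M.V.mul_mem_cancel_right (M.v_mem b)).1 h)

theorem Mod.W_sq (M : Mod G F) {x : G} (hx : x ∈ M.W) : x * x = 1 := by
  obtain ⟨b, rfl | rfl⟩ := M.mem_W.1 hx
  exacts [M.v_sq b, M.tv_sq b]

theorem Mod.W_t (M : Mod G F) {x : G} (hx : x ∈ M.W) : Commute x M.t := by
  obtain ⟨b, rfl | rfl⟩ := M.mem_W.1 hx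
  exacts [(M.t_v b).symm, (Commute.refl _).mul_left (M.t_v b).symm]

theorem Mod.W_v (M : Mod G F) {x : G} (hx : x ∈ M.W) (c : F) : Commute x (M.v c) := by
  obtain ⟨b, rfl | rfl⟩ := M.mem_W.1 hx
  exacts [M.v_comm b c, (M.t_v c).mul_left (M.v_comm b c)]

theorem Mod.W_comm (M : Mod G F) {x y : G} (hx : x ∈ M.W) (hy : y ∈ M.W) : Commute x y := by
  obtain ⟨b, rfl | rfl⟩ := M.mem_W.1 hy
  exacts [M.W_v hx b, (M.W_t hx).mul_right (M.W_v hx b)]

theorem Mod.two_W (M : Mod G F) : IsPGroup 2 M.W :=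
  two_of_pow fun _ hx => ⟨1, by rw [pow_one, sq, M.W_sq hx]⟩

theorem Mod.two_V (M : Mod G F) : IsPGroup 2 M.V := M.two_W.to_le M.V_le_W

omit [Finite G] in
theorem Mod.card_V (M : Mod G F) : Nat.card M.V = Nat.card F :=
  (Nat.card_congr (Equiv.ofBijective (fun b => (⟨M.v b, M.v_mem b⟩ : M.V))
    ⟨fun _ _ h => M.v_inj (congrArg Subtype.val h),
      by rintro ⟨_, b, rfl⟩; exact ⟨b, rfl⟩⟩)).symm

theorem Mod.card_W [Finite F] (M : Mod G F) : Nat.card M.W = 2 * Nat.card F := by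
  let f : F ⊕ F → M.W := Sum.elim (fun b => ⟨M.v b, M.v_mem_W b⟩) fun b => ⟨_, M.tv_mem_W b⟩
  have hf : Function.Bijective f := by
    constructor
    · rintro (b | b) (c | c) h <;> have h' := congrArg Subtype.val h
      · rw [M.v_inj h']
      · exact absurd ⟨b, h'.symm⟩ (M.tv_not_mem_V c)
      · exact absurd ⟨c, h'⟩ (M.tv_not_mem_V b)
      · rw [M.v_inj (mul_left_cancel h')]
    · rintro ⟨x, hx⟩
      obtain ⟨b, rfl | rfl⟩ := M.mem_W.1 hx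
      exacts [⟨Sum.inl b, rfl⟩, ⟨Sum.inr b, rfl⟩]
  rw [← Nat.card_congr (Equiv.ofBijective f hf), Nat.card_sum, two_mul]

theorem Mod.exists_pow (M : Mod G F) : ∃ a, 2 ≤ a ∧ Nat.card F = 2 ^ a := by
  have : Fact (Nat.Prime 2) := ⟨Nat.prime_two⟩
  obtain ⟨a, ha⟩ := IsPGroup.iff_card.1 M.two_V
  rw [M.card_V] at ha
  refine ⟨a, ?_, ha⟩
  have := M.big
  by_contra h
  have : a = 0 ∨ a = 1 := by omega
  rcases this with rfl | rfl <;> omega

theorem Mod.W_le_B (M : Mod G F) : M.W ≤ M.B := fun _ hx =>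
  M.mem_B.2 ⟨M.W_t hx, M.mem_Ns_V (M.W_v hx)⟩

theorem Mod.h_mem_B (M : Mod G F) (k : Fˣ) : M.h k ∈ M.B :=
  M.mem_B.2 ⟨(M.t_h k).symm, mem_Ns (by rintro _ ⟨b, rfl⟩; exact ⟨_, M.h_v k b⟩)⟩

theorem Mod.K_le_B (M : Mod G F) : M.K ≤ M.B := fun c hc =>
  M.mem_B.2 ⟨M.K_t c hc, M.mem_Ns_V (M.K_v c hc)⟩

theorem Mod.B_le_NsW (M : Mod G F) : M.B ≤ Ns M.W := fun g hg => mem_Ns fun x hx => by
  obtain ⟨h1, h2⟩ := M.mem_B.1 hg
  obtain ⟨b, rfl | rfl⟩ := M.mem_W.1 hx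
  · exact M.V_le_W (mem_normalizer_conj h2 (M.v_mem b))
  · rw [show g * (M.t * M.v b) * g⁻¹ = g * M.t * g⁻¹ * (g * M.v b * g⁻¹) by group,
      conj_eq_of_commute h1]
    exact M.W.mul_mem M.t_mem_W (M.V_le_W (mem_normalizer_conj h2 (M.v_mem b)))

theorem Mod.mem_B_of_NsW (M : Mod G F) {g : G} (h1 : Commute g M.t) (h2 : g ∈ Ns M.W) :
    g ∈ M.B :=
  M.mem_B.2 ⟨h1, mem_Ns (by
    rintro _ ⟨b, rfl⟩
    exact M.ti g h1 b (M.W_le_B (mem_normalizer_conj h2 (M.v_mem_W b))).2)⟩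

theorem Mod.odd_units [Finite F] (M : Mod G F) : Odd (Nat.card Fˣ) := by
  obtain ⟨a, ha, h⟩ := M.exists_pow
  rw [Nat.card_units, h]
  obtain ⟨c, rfl⟩ : ∃ c, a = c + 1 := ⟨a - 1, by omega⟩
  have : 0 < 2 ^ c := by positivity
  rw [pow_succ]
  exact ⟨2 ^ c - 1, by omega⟩

theorem Mod.odd_h [Finite F] (M : Mod G F) : Odd (Nat.card M.h.range) :=
  M.odd_units.of_dvd_nat (card_range_dvd M.h)

theorem Mod.odd_orderOf_h [Finite F] (M : Mod G F) (k : Fˣ) : Odd (orderOf (M.h k)) :=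
  odd_orderOf M.odd_h ⟨k, rfl⟩

omit [Finite G] in
theorem Mod.exists_h (M : Mod G F) {b c : F} (hb : b ≠ 0) (hc : c ≠ 0) :
    ∃ k, M.h k * M.v b * (M.h k)⁻¹ = M.v c :=
  ⟨Units.mk0 (c / b) (div_ne_zero hc hb), by rw [M.h_v, Units.val_mk0, div_mul_cancel₀ _ hb]⟩

omit [Finite G] in
theorem Mod.eq_of_commute_h (M : Mod G F) {k : Fˣ} {b : F} (h : Commute (M.h k) (M.v b)) :
    k = 1 ∨ b = 0 := by
  have h1 := M.h_v k b
  rw [conj_eq_of_commute h] at h1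
  have h2 := M.v_inj h1
  by_cases hb : b = 0
  · exact Or.inr hb
  · exact Or.inl (Units.ext (by simpa [hb] using h2.symm))

omit [Finite G] in
theorem Mod.exists_unit [Finite F] (M : Mod G F) : ∃ k : Fˣ, k ≠ 1 := by
  obtain ⟨z, h0, h1⟩ := exists_ne_zero_one (F := F) (by have := M.big; omega)
  exact ⟨Units.mk0 z h0, fun h => h1 (congrArg Units.val h)⟩

/-- The only involution of `K` is `t`. -/
theorem Mod.K_invol (M : Mod G F) {c : G} (hc : c ∈ M.K) (h : c * c = 1) : c = 1 ∨ c = M.t := by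
  by_cases h1 : c = 1
  · exact Or.inl h1
  have ht : M.t ^ 2 ^ 1 = 1 := by rw [pow_one, sq, M.t_sq]
  have h2 : IsPGroup 2 (zpowers M.t ⊔ zpowers c : Subgroup G) :=
    two_sup_zpowers (two_zpowers ht) (k := 1) (by rw [pow_one, sq, h]) (by
      rintro _ ⟨n, rfl⟩; exact ((M.K_t c hc).symm).zpow_left n)
  exact Or.inr (invol_eq_of_cyclic (M.K_cyc _ (sup_le (zpowers_le.2 M.t_K) (zpowers_le.2 hc)) h2)
    (mem_sup_right (mem_zpowers c)) (mem_sup_left (mem_zpowers _)) h M.t_sq h1 M.t_ne)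

/-- involutions of `C(t) ∩ C(V)` -/
theorem Mod.mem_W_of_sq (M : Mod G F) {g : G} (h1 : Commute g M.t) (h2 : ∀ b, Commute g (M.v b))
    (h3 : g * g = 1) : g ∈ M.W := by
  obtain ⟨b, c, hc, rfl⟩ := M.cent g h1 h2
  rw [(M.K_v c hc b).mul_mul_mul_comm, M.v_sq, one_mul] at h3
  rcases M.K_invol hc h3 with rfl | rfl
  · rw [mul_one]; exact M.v_mem_W b
  · exact M.W.mul_mem (M.v_mem_W b) M.t_mem_W

/-- a 2-subgroup of `C(t)` containing `V` normalises `V` -/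
theorem Mod.le_B_of_two (M : Mod G F) {R : Subgroup G} (hR : IsPGroup 2 R) (hV : M.V ≤ R)
    (hC : R ≤ C1 M.t) : R ≤ M.B := by
  have : Fact (Nat.Prime 2) := ⟨Nat.prime_two⟩
  by_contra hn
  have hlt : R ⊓ M.B < R := lt_of_le_of_ne inf_le_left fun h => hn (h ▸ inf_le_right)
  obtain ⟨g, hg, hgB⟩ := SetLike.exists_of_lt (lt_inf_normalizer hR hlt)
  have h1 : Commute g M.t := mem_C1.1 (hC hg.1)
  have h2 : ∀ b, M.v b ∈ R ⊓ M.B := fun b => ⟨hV (M.v_mem b), M.W_le_B (M.v_mem_W b)⟩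
  exact hgB ⟨hg.1, M.mem_B.2 ⟨h1, mem_Ns (by
    rintro _ ⟨b, rfl⟩
    exact M.ti g h1 b (mem_normalizer_conj hg.2 (h2 b)).2.2)⟩⟩

theorem Mod.exists_syl (M : Mod G F) : Nonempty (Syl M) := by
  classical
  have : Fact (Nat.Prime 2) := ⟨Nat.prime_two⟩
  obtain ⟨T0, hT0, hW⟩ := exists_isSylowIn_ge M.two_W (H := C1 M.t) fun _ hx => (M.W_le_B hx).1
  have hB := M.le_B_of_two hT0.isPGroup (M.V_le_W.trans hW) hT0.le
  have hV : M.V ≠ ⊥ := fun h => M.v1_ne (mem_bot.1 (h ▸ M.v_mem 1))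
  obtain ⟨⟨e, ⟨c, rfl⟩, he⟩, he1⟩ := (Subgroup.ne_bot_iff_exists_ne_one).1
    (Solv.PG.inf_centralizer_ne_bot_of_isNilpotent hT0.isPGroup.isNilpotent (M.V_le_W.trans hW)
      (fun _ hx => (hB hx).2) hV)
  have hc : c ≠ 0 := fun h => he1 (Subtype.ext (M.v_eq_one.2 h))
  obtain ⟨k, hk⟩ := M.exists_h hc one_ne_zero
  have hkB := M.h_mem_B k
  have hT : IsSylowIn 2 (cj (M.h k) T0) (C1 M.t) := hT0.cj_of_mem hkB.1
  have hW' : M.W ≤ cj (M.h k) T0 :=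
    (cj_eq_of_mem_normalizer (M.B_le_NsW hkB)).ge.trans (cj_mono _ hW)
  have hB' := M.le_B_of_two hT.isPGroup (M.V_le_W.trans hW') hT.le
  have key : ∀ s ∈ cj (M.h k) T0, ∃ σ : RingAut F, ∀ b, s * M.v b * s⁻¹ = M.v (σ b) := by
    intro s hs
    obtain ⟨l, σ, h⟩ := M.semi s (M.mem_B.1 (hB' hs)).1 (hB' hs).2
    have h1 : Commute s (M.v 1) := by
      obtain ⟨s0, hs0, rfl⟩ := hs
      rw [← hk]
      exact commute_conj (mem_Cs.1 he s0 hs0).symm _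
    have h2 := h 1
    rw [conj_eq_of_commute h1, map_one, mul_one] at h2
    refine ⟨σ, fun b => ?_⟩
    rw [h b, ← M.v_inj h2, one_mul]
  choose! σ hσ using key
  exact ⟨⟨_, σ, hT, hW', hB', hσ⟩⟩

omit [Finite G] in
/-- frame lemma -/
theorem Mod.mem_V_of_conj (M : Mod G F) {g y : G} (hg : Commute g M.t) (hy : y ∈ Ns M.V)
    (h : g⁻¹ * y * g ∈ M.V) : y ∈ M.V := by
  obtain ⟨b, hb⟩ := h
  have e : y = g * M.v b * g⁻¹ := by rw [← hb]; group
  rw [e] at hy ⊢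
  exact M.ti g hg b hy

theorem Dat.K_two (D : Dat G F) {c : G} (hc : c ∈ D.K) {k : ℕ} (h : c ^ 2 ^ k = 1) :
    c = 1 ∨ c = D.t := by
  rcases D.K_dec c hc with h1 | h1
  · exact Or.inl (StdU3.eq_one_of_odd_pow (odd_orderOf D.O_odd h1) h)
  · have := StdU3.eq_one_of_odd_pow (odd_orderOf D.O_odd h1) (k := k + 1) (by
      rw [(D.K_t c hc).symm.mul_pow, pow_succ, pow_mul c, h, one_pow, mul_one, mul_comm, pow_mul,
        sq, D.t_sq, one_pow])
    exact Or.inr (by rw [← D.tt_mul c, this, mul_one])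

theorem Dat.mem_W_of_pow (D : Dat G F) {g : G} (h1 : Commute g D.t) (h2 : ∀ b, Commute g (D.v b))
    {k : ℕ} (h3 : g ^ 2 ^ k = 1) : g ∈ D.W := by
  obtain ⟨b, c, hc, rfl⟩ := D.cent g h1 h2
  have h4 : c ^ 2 ^ (k + 1) = 1 := by
    have := congrArg (· ^ 2) h3
    simp only [← pow_mul, one_pow] at this
    rwa [(D.K_v c hc b).symm.mul_pow, mul_comm (2 ^ k), pow_mul, sq, D.v_sq, one_pow, one_mul,
      mul_comm, ← pow_succ] at this
  rcases D.K_two hc h4 with rfl | rfl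
  · rw [mul_one]; exact D.v_mem_W b
  · exact D.W.mul_mem (D.v_mem_W b) D.t_mem_W

omit [Finite G] in
theorem Dat.cent' (D : Dat G F) {g : G} (h1 : Commute g D.t) (h2 : ∀ b, Commute g (D.v b)) :
    ∃ w ∈ D.W, ∃ o ∈ D.O, g = w * o := by
  obtain ⟨b, c, hc, rfl⟩ := D.cent g h1 h2
  rcases D.K_dec c hc with h | h
  · exact ⟨_, D.v_mem_W b, c, h, rfl⟩
  · exact ⟨_, D.W.mul_mem (D.v_mem_W b) D.t_mem_W, _, h, by rw [mul_assoc, D.tt_mul]⟩

theorem Dat.O_W (D : Dat G F) {o w : G} (ho : o ∈ D.O) (hw : w ∈ D.W) : Commute o w := by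
  obtain ⟨b, rfl | rfl⟩ := D.mem_W.1 hw
  exacts [D.K_v o (D.O_le ho) b, (D.K_t o (D.O_le ho)).mul_right (D.K_v o (D.O_le ho) b)]

theorem Dat.mem_O_iff (D : Dat G F) {g : G} :
    g ∈ D.O ↔ Commute g D.t ∧ (∀ b, Commute g (D.v b)) ∧ Odd (orderOf g) := by
  refine ⟨fun h => ⟨D.K_t g (D.O_le h), D.K_v g (D.O_le h), odd_orderOf D.O_odd h⟩, ?_⟩
  rintro ⟨h1, h2, h3⟩
  obtain ⟨w, hw, o, ho, rfl⟩ := D.cent' h1 h2
  exact StdU3.mem_of_odd_mul (D.O_W ho hw).symm (k := 1) (by rw [pow_one, sq, D.W_sq hw]) ho h3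

theorem Dat.Ns_O (D : Dat G F) {g : G} (hg : Commute g D.t) : g ∈ Ns D.O := mem_Ns fun o ho => by
  have h1 := mem_normalizer_conj (D.K_n g hg) (D.O_le ho)
  refine D.mem_O_iff.2 ⟨D.K_t _ h1, D.K_v _ h1, ?_⟩
  have := (MulAut.conj g).orderOf_eq o
  rw [MulAut.conj_apply] at this
  rw [this]
  exact odd_orderOf D.O_odd ho

section Fld

omit [Finite G]

theorem exists_trace {σ : RingAut F} (h2 : (2 : F) = 0) (hσ : σ ≠ 1) (hs : σ * σ = 1) {c : F}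
    (hc : σ c = c) : ∃ b, b + σ b = c := by
  obtain ⟨z, hz⟩ : ∃ z, σ z ≠ z := by
    by_contra h
    push Not at h
    exact hσ (RingEquiv.ext h)
  have hss : σ (σ z) = z := congrArg (fun τ : RingAut F => τ z) hs
  have h0 : z + σ z ≠ 0 := fun h => hz (by linear_combination h - z * h2)
  refine ⟨c * z / (z + σ z), ?_⟩
  rw [map_div₀, map_mul, map_add, hc, hss, add_comm (σ z) z]
  field_simp

/-- field automorphisms of order two -/
theorem card_fix {σ : RingAut F} (h2 : (2 : F) = 0) (hσ : σ ≠ 1) (hs : σ * σ = 1) :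
    Nat.card {b : F // σ b = b} ^ 2 = Nat.card F := by
  have hss : ∀ z, σ (σ z) = z := fun z => congrArg (fun τ : RingAut F => τ z) hs
  let f : F →+ F := AddMonoidHom.id F + (σ : F →+* F).toAddMonoidHom
  have hf : ∀ b, f b = b + σ b := fun _ => rfl
  have h1 : Nat.card f.ker = Nat.card {b : F // σ b = b} :=
    Nat.card_congr (Equiv.subtypeEquivRight fun b => by
      rw [AddMonoidHom.mem_ker, hf]
      exact ⟨fun h => by linear_combination h - b * h2, fun h => by rw [h, ← two_mul, h2, zero_mul]⟩)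
  have h3 : Nat.card f.range = Nat.card {b : F // σ b = b} :=
    Nat.card_congr (Equiv.subtypeEquivRight fun c =>
      ⟨by rintro ⟨b, rfl⟩; rw [hf, map_add, hss, add_comm], fun h => exists_trace h2 hσ hs h⟩)
  rw [AddSubgroup.card_eq_card_quotient_mul_card_addSubgroup f.ker,
    Nat.card_congr (QuotientAddGroup.quotientKerEquivRange f).toEquiv, h1, h3, sq]

theorem sq_le_two_pow {f : ℕ} (h : f ≠ 3) : f ^ 2 ≤ 2 ^ f := by
  by_cases h4 : f < 4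
  · interval_cases f <;> simp_all
  obtain ⟨n, rfl⟩ : ∃ n, f = n + 4 := ⟨f - 4, by omega⟩
  clear h h4
  induction n with
  | zero => norm_num
  | succ n ih => rw [show n + 1 + 4 = n + 4 + 1 from rfl, pow_succ 2]; nlinarith [Nat.zero_le n]

end Fld

namespace Syl
variable {M : Mod G F} (S : Syl M)

omit [Finite G] in
theorem two : IsPGroup 2 S.T := S.syl.isPGroup

omit [Finite G] in
theorem T_t {s : G} (hs : s ∈ S.T) : Commute s M.t := mem_C1.1 (S.syl.le hs)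

omit [Finite G] in
theorem T_NsV : S.T ≤ Ns M.V := fun _ hs => (S.le_B hs).2

omit [Finite G] in
theorem V_le : M.V ≤ S.T := M.V_le_W.trans S.W_le

omit [Finite G] in
theorem t_mem : M.t ∈ S.T := S.W_le M.t_mem_W

omit [Finite G] in
theorem σ_mul {s s' : G} (hs : s ∈ S.T) (hs' : s' ∈ S.T) : S.σ (s * s') = S.σ s * S.σ s' :=
  RingEquiv.ext fun b => M.v_inj (by
    rw [← S.act _ (S.T.mul_mem hs hs'), show s * s' * M.v b * (s * s')⁻¹ =
      s * (s' * M.v b * s'⁻¹) * s⁻¹ by group, S.act s' hs', S.act s hs]; rfl)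

omit [Finite G] in
theorem σ_eq_one {s : G} (hs : s ∈ S.T) : S.σ s = 1 ↔ ∀ b, Commute s (M.v b) :=
  ⟨fun h b => commute_of_conj_eq (by rw [S.act s hs, h]; rfl), fun h =>
    RingEquiv.ext fun b => M.v_inj (by rw [← S.act s hs, conj_eq_of_commute (h b)]; rfl)⟩

omit [Finite G] in
theorem T_v1 {s : G} (hs : s ∈ S.T) : Commute s (M.v 1) :=
  commute_of_conj_eq (by rw [S.act s hs, map_one])

omit [Finite G] in
theorem commute_v {s : G} (hs : s ∈ S.T) {b : F} : Commute s (M.v b) ↔ S.σ s b = b :=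
  ⟨fun h => M.v_inj (by rw [← S.act s hs, conj_eq_of_commute h]),
    fun h => commute_of_conj_eq (by rw [S.act s hs, h])⟩

/-- The action on `V` as a homomorphism. -/
def φ : S.T →* RingAut F := MonoidHom.mk' (fun s => S.σ s) fun s s' => S.σ_mul s.2 s'.2

omit [Finite G] in
theorem σ_one : S.σ 1 = 1 := S.φ.map_one

omit [Finite G] in
theorem σ_pow {s : G} (hs : s ∈ S.T) (n : ℕ) : S.σ (s ^ n) = S.σ s ^ n := S.φ.map_pow ⟨s, hs⟩ n

omit [Finite G] in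
theorem σ_inv {s : G} (hs : s ∈ S.T) : S.σ s⁻¹ = (S.σ s)⁻¹ := S.φ.map_inv ⟨s, hs⟩

theorem σ_W {w : G} (hw : w ∈ M.W) : S.σ w = 1 := (S.σ_eq_one (S.W_le hw)).2 (M.W_v hw)

variable [Finite F]

/-- `T / C_T(V)` is cyclic -/
theorem cyc : ∃ s0 ∈ S.T, ∀ s ∈ S.T, ∃ n : ℕ, S.σ s = S.σ s0 ^ n := by
  have := Known.isCyclic_ringAut (F := F)
  have : Finite S.φ.range := Finite.of_surjective _ S.φ.rangeRestrict_surjective
  obtain ⟨⟨_, s0, rfl⟩, h⟩ := IsCyclic.exists_monoid_generator (α := S.φ.range)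
  refine ⟨s0, s0.2, fun s hs => ?_⟩
  obtain ⟨n, hn⟩ := h ⟨_, ⟨s, hs⟩, rfl⟩
  exact ⟨n, (congrArg Subtype.val hn).symm⟩

omit [Finite G] in
/-- two elements with `σ` of order two differ by an element of `C_T(V)` -/
theorem σ_invol {s s' : G} (_hs : s ∈ S.T) (_hs' : s' ∈ S.T) (h : S.σ s ≠ 1) (h' : S.σ s' ≠ 1)
    (h2 : S.σ s * S.σ s = 1) (h2' : S.σ s' * S.σ s' = 1) : S.σ s = S.σ s' := by
  have := Known.isCyclic_ringAut (F := F)
  have : Finite (RingAut F) := Finite.of_injective _ DFunLike.coe_injective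
  exact invol_eq_of_cyclic (U := ⊤) inferInstance (mem_top _) (mem_top _) h2 h2' h h'

/-- `f = |T : C_T(V)|` -/
noncomputable def f : ℕ := (Cs M.V).relIndex S.T

omit [Finite G] [Finite F] in
theorem ker_φ : S.φ.ker = (Cs M.V).subgroupOf S.T := by
  ext s
  rw [MonoidHom.mem_ker, mem_subgroupOf, mem_Cs]
  exact (S.σ_eq_one s.2).trans ⟨by rintro h _ ⟨b, rfl⟩; exact h b, fun h b => h _ (M.v_mem b)⟩

omit [Finite G] [Finite F] in
theorem f_eq : S.f = Nat.card S.φ.range := by rw [f, relIndex, ← S.ker_φ, index_ker]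

theorem f_dvd {a : ℕ} (h : Nat.card F = 2 ^ a) : S.f ∣ a := by
  have : Fact (Nat.Prime 2) := ⟨Nat.prime_two⟩
  have := Fintype.ofFinite F
  rw [S.f_eq, ← Known.card_ringAut (F := F) (p := 2) (f := a) (by rw [← Nat.card_eq_fintype_card, h])]
  exact card_subgroup_dvd_card _

omit [Finite F] in
theorem f_pow : ∃ j, S.f = 2 ^ j := by
  have : Fact (Nat.Prime 2) := ⟨Nat.prime_two⟩
  exact S.two.index _

theorem f_cases : S.f = 1 ∨ (2 ≤ S.f ∧ S.f ^ 2 ≤ Nat.card F) := by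
  obtain ⟨a, ha, h⟩ := M.exists_pow
  obtain ⟨j, hj⟩ := S.f_pow
  have h1 := Nat.le_of_dvd (by omega) (S.f_dvd h)
  have h0 : 0 < S.f := by rw [hj]; positivity
  by_cases h2 : S.f = 1
  · exact Or.inl h2
  refine Or.inr ⟨by omega, (sq_le_two_pow fun h3 => ?_).trans
    (h ▸ Nat.pow_le_pow_right two_pos h1)⟩
  rcases j with _ | j
  · omega
  · rw [pow_succ] at hj; omega

theorem f_eq_one (h : Nat.card F = 8) : S.f = 1 := by
  have h1 := S.f_dvd (a := 3) h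
  obtain ⟨j, hj⟩ := S.f_pow
  rcases (Nat.dvd_prime Nat.prime_three).1 h1 with h2 | h2
  · exact h2
  rcases j with _ | j
  · omega
  · rw [pow_succ] at hj; omega

theorem f_le_two (h : Nat.card F = 4) : S.f ≤ 2 := Nat.le_of_dvd two_pos (S.f_dvd (a := 2) h)

omit [Finite F] in
theorem σ_of_f (h : S.f = 1) {s : G} (hs : s ∈ S.T) : S.σ s = 1 := by
  rw [f, relIndex_eq_one] at h
  exact (S.σ_eq_one hs).2 fun b => mem_Cs.1 (h hs) _ (M.v_mem b)

omit [Finite F] in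
/-- a 2-group centralising a conjugate of `t` is conjugate into `T` -/
theorem conj_le {g : G} {R : Subgroup G} (hR : IsPGroup 2 R) (hc : R ≤ C1 (g * M.t * g⁻¹)) :
    ∃ g', g' * M.t * g'⁻¹ = g * M.t * g⁻¹ ∧ R ≤ cj g' S.T := by
  have : Fact (Nat.Prime 2) := ⟨Nat.prime_two⟩
  obtain ⟨c, hc1, hc2⟩ := S.syl.exists_cj_le (isPGroup_cj hR g⁻¹) (cj_le_iff.2 fun x hx => by
    have := commute_conj (mem_C1.1 (hc hx)) g⁻¹
    rw [show g⁻¹ * (g * M.t * g⁻¹) * g⁻¹⁻¹ = M.t by group] at this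
    exact mem_C1.2 this)
  refine ⟨g * c⁻¹, ?_, ?_⟩
  · rw [show g * c⁻¹ * M.t * (g * c⁻¹)⁻¹ = g * (c⁻¹ * M.t * c⁻¹⁻¹) * g⁻¹ by group,
      conj_eq_of_commute (mem_C1.1 hc1).inv_left]
  · rw [cj_cj, cj_le_iff_le_cj_inv, mul_inv_rev, inv_inv] at hc2
    exact hc2

omit [Finite F] in
theorem card_le {g : G} {R : Subgroup G} (hR : IsPGroup 2 R) (hc : R ≤ C1 (g * M.t * g⁻¹)) :
    Nat.card R ≤ Nat.card S.T := by
  obtain ⟨g', -, h⟩ := S.conj_le hR hc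
  exact (Subgroup.card_le_of_le h).trans (card_cj _ _).le

/-- elementary abelian subgroups of `T`: in `W`, or `|E| ^ 2 ≤ 16 q` -/
theorem elem {E : Subgroup G} (hE : E ≤ S.T) (h : ∀ e ∈ E, e * e = 1) :
    E ≤ M.W ∨ Nat.card E ^ 2 ≤ 16 * Nat.card F := by
  have hW : ∀ e ∈ E, S.σ e = 1 → e ∈ M.W := fun e he h1 =>
    M.mem_W_of_sq (S.T_t (hE he)) ((S.σ_eq_one (hE he)).1 h1) (h e he)
  have hσ : ∀ e ∈ E, S.σ e * S.σ e = 1 := fun e he => by
    rw [← S.σ_mul (hE he) (hE he), h e he, S.σ_one]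
  by_cases h0 : ∀ e ∈ E, S.σ e = 1
  · exact Or.inl fun e he => hW e he (h0 e he)
  push Not at h0
  obtain ⟨e0, he0, h1⟩ := h0
  right
  have hc : ∀ e ∈ E, Commute e0 e := fun e he =>
    StdU3.commute_of_invol (h _ he0) (h _ he) (h _ (E.mul_mem he0 he))
  let ψ : Bool × Bool × {b : F // S.σ e0 b = b} → G := fun x =>
    (if x.1 then e0 else 1) * ((if x.2.1 then M.t else 1) * M.v x.2.2)
  have k1 : ∀ e ∈ E, S.σ e = 1 → ∃ j b, e = ψ (false, j, b) := fun e he h2 => by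
    obtain ⟨b, rfl | rfl⟩ := M.mem_W.1 (hW e he h2)
    · exact ⟨false, ⟨b, (S.commute_v (hE he0)).1 (hc _ he)⟩, by simp [ψ]⟩
    · refine ⟨true, ⟨b, (S.commute_v (hE he0)).1 ?_⟩, by simp [ψ]⟩
      rw [← M.tt_mul (M.v b)]
      exact (S.T_t (hE he0)).mul_right (hc _ he)
  have k2 : ∀ e : E, ∃ x, (e : G) = ψ x := fun e => by
    by_cases h2 : S.σ e = 1
    · obtain ⟨j, b, h3⟩ := k1 e e.2 h2
      exact ⟨_, h3⟩
    · obtain ⟨j, b, h3⟩ := k1 (e0 * e) (E.mul_mem he0 e.2) (by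
        rw [S.σ_mul (hE he0) (hE e.2), S.σ_invol (hE e.2) (hE he0) h2 h1 (hσ _ e.2) (hσ _ he0),
          hσ _ he0])
      refine ⟨(true, j, b), ?_⟩
      simp only [ψ, if_true, Bool.false_eq_true, if_false, one_mul] at h3 ⊢
      rw [← h3, ← mul_assoc, h _ he0, one_mul]
  choose χ hχ using k2
  have h3 := Nat.card_le_card_of_injective χ fun e e' h4 => Subtype.ext (by rw [hχ, hχ, h4])
  simp only [Nat.card_prod, Nat.card_eq_fintype_card (α := Bool), Fintype.card_bool] at h3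
  rw [← card_fix M.two h1 (hσ _ he0)]
  nlinarith

omit [Finite F] in
/-- `R ≥ T` is Sylow in `G` if `N(R)` and `R` have the same orbit of `t`. -/
theorem sylow_of {R : Subgroup G} (hR : IsPGroup 2 R) (hT : S.T ≤ R)
    (h : ∀ g ∈ Ns R, ∃ s ∈ R, g * M.t * g⁻¹ = s * M.t * s⁻¹) :
    ∃ P : Sylow 2 G, (P : Subgroup G) = R := by
  have : Fact (Nat.Prime 2) := ⟨Nat.prime_two⟩
  obtain ⟨P, hP⟩ := hR.exists_le_sylow
  refine ⟨P, ?_⟩
  by_contra hne
  have hlt : R < P := lt_of_le_of_ne hP (Ne.symm hne)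
  obtain ⟨g, hg, hgA⟩ := SetLike.exists_of_lt (lt_inf_normalizer P.isPGroup' hlt)
  obtain ⟨x, hx, hgx⟩ := h g hg.2
  have h1 : x⁻¹ * g ∈ S.T := by
    rw [← S.syl.eq_inf P.isPGroup' (hT.trans hP)]
    exact mem_inf.2 ⟨mul_mem (inv_mem (hP hx)) hg.1, mem_C1.2 (commute_of_conj_eq (by
      rw [show x⁻¹ * g * M.t * (x⁻¹ * g)⁻¹ = x⁻¹ * (g * M.t * g⁻¹) * x by group, hgx]; group))⟩
  exact hgA (by simpa using R.mul_mem hx (hT h1))

end Syl

theorem Syl.mem_W {D : Dat G F} (S : Syl D.toMod) {s : G} (hs : s ∈ S.T) (h : S.σ s = 1) :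
    s ∈ D.W := by
  obtain ⟨k, hk⟩ := pow_of_two S.two hs
  exact D.mem_W_of_pow (S.T_t hs) ((S.σ_eq_one hs).1 h) hk

theorem Syl.Cs_inf {D : Dat G F} (S : Syl D.toMod) : Cs D.V ⊓ S.T = D.W :=
  le_antisymm (fun _ hs => S.mem_W hs.2 ((S.σ_eq_one hs.2).2 fun b => mem_Cs.1 hs.1 _ (D.v_mem b)))
    (le_inf (fun _ hw => mem_Cs.2 fun _ hv => D.W_comm hw (D.V_le_W hv)) S.W_le)

theorem Syl.T_eq {D : Dat G F} (S : Syl D.toMod) (h : S.f = 1) : S.T = D.W :=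
  le_antisymm (fun _ hs => S.mem_W hs (S.σ_of_f h hs)) S.W_le

variable [Finite F]

theorem Syl.card_T {D : Dat G F} (S : Syl D.toMod) : Nat.card S.T = 2 * Nat.card F * S.f := by
  rw [← card_mul_relIndex S.W_le, D.card_W, Syl.f, ← inf_relIndex_right (Cs D.V), S.Cs_inf]

theorem Syl.comm_mem {D : Dat G F} (S : Syl D.toMod) {s s' : G} (hs : s ∈ S.T) (hs' : s' ∈ S.T) :
    ⁅s, s'⁆ ∈ D.V := by
  obtain ⟨s0, hs0, h⟩ := S.cyc
  have : (D.V.subgroupOf S.T).Normal := normal_subgroupOf_of_le_normalizer S.T_NsV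
  let π := QuotientGroup.mk' (D.V.subgroupOf S.T)
  have hπ : ∀ x : S.T, π x = 1 ↔ (x : G) ∈ D.V := fun x => QuotientGroup.eq_one_iff x
  have k1 : ∀ w x : S.T, (w : G) ∈ D.W → Commute (π w) (π x) := fun w x hw => by
    rw [← commutatorElement_eq_one_iff_commute, ← map_commutatorElement, hπ]
    have hx := fun {y : G} => mem_normalizer_conj (x := y) (S.T_NsV x.2)
    change (w : G) * x * (w : G)⁻¹ * (x : G)⁻¹ ∈ D.V
    obtain ⟨b, e | e⟩ := D.mem_W.1 hw <;> rw [e]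
    · rw [mul_assoc, mul_assoc, ← mul_assoc (x : G)]
      exact D.V.mul_mem (D.v_mem b) (hx (D.V.inv_mem (D.v_mem b)))
    · rw [show D.t * D.v b * x * (D.t * D.v b)⁻¹ * (x : G)⁻¹ =
        D.t * (D.v b * (x * (D.v b)⁻¹ * (x : G)⁻¹)) * D.t⁻¹ * (D.t * (x * D.t * (x : G)⁻¹)⁻¹) by
          group, conj_eq_of_commute (S.T_t x.2), mul_inv_cancel, mul_one]
      exact mem_normalizer_conj D.t_NsV
        (D.V.mul_mem (D.v_mem b) (hx (D.V.inv_mem (D.v_mem b))))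
  have k2 : ∀ x : S.T, ∃ (w : S.T) (n : ℕ), (w : G) ∈ D.W ∧ x = w * ⟨s0, hs0⟩ ^ n := fun x => by
    obtain ⟨n, hn⟩ := h x x.2
    refine ⟨x * (⟨s0, hs0⟩ ^ n)⁻¹, n, S.mem_W (Subtype.prop _) ?_, by group⟩
    change S.φ _ = 1
    rw [map_mul, map_inv, map_pow, mul_inv_eq_one]
    exact hn
  obtain ⟨w, n, hw, e⟩ := k2 ⟨s, hs⟩
  obtain ⟨w', n', hw', e'⟩ := k2 ⟨s', hs'⟩
  have : π ⁅(⟨s, hs⟩ : S.T), ⟨s', hs'⟩⁆ = 1 := by
    rw [map_commutatorElement, commutatorElement_eq_one_iff_commute, e, map_mul]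
    refine (k1 _ _ hw).mul_left ?_
    rw [e', map_mul, map_pow, map_pow]
    exact (k1 _ _ hw').symm.pow_left _ |>.mul_right ((Commute.refl _).pow_pow _ _)
  exact (hπ _).1 this

omit [Finite F] in
/-- an element of field type can be corrected to have square in `⟨t⟩` -/
theorem Syl.exists_sq {D : Dat G F} (S : Syl D.toMod) {s : G} (hs : s ∈ S.T) (h : S.σ s ≠ 1)
    (h2 : S.σ s * S.σ s = 1) : ∃ b, s * D.v b * (s * D.v b) = 1 ∨ s * D.v b * (s * D.v b) = D.t := by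
  have h3 := S.mem_W (S.T.mul_mem hs hs) (by rw [S.σ_mul hs hs, h2])
  have e : ∀ b, s * D.v b * (s * D.v b) = D.v (S.σ s b) * (s * s) * D.v b := fun b => by
    rw [← S.act s hs]; group
  have hc : Commute s (s * s) := (Commute.refl s).mul_right (Commute.refl s)
  obtain ⟨c, h4 | h4⟩ := D.mem_W.1 h3
  · obtain ⟨b, hb⟩ := exists_trace D.two h h2 ((S.commute_v hs).1 (h4 ▸ hc))
    refine ⟨b, Or.inl ?_⟩
    rw [e, h4, ← D.v_add, ← D.v_add, D.v_eq_one, ← hb]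
    linear_combination (b + S.σ s b) * D.two
  · obtain ⟨b, hb⟩ := exists_trace D.two h h2 ((S.commute_v hs (b := c)).1 (by
      rw [← D.tt_mul (D.v c), ← h4]; exact (S.T_t hs).mul_right hc))
    refine ⟨b, Or.inr ?_⟩
    rw [e, h4, ← mul_assoc, ← (D.t_v _).eq, mul_assoc, mul_assoc, ← D.v_add, ← D.v_add,
      show S.σ s b + (c + b) = 0 by rw [← hb]; linear_combination (b + S.σ s b) * D.two, D.v_zero,
      mul_one]

end Cfsg.Lib.SJ1
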