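import Cfsg.Agent.StdU3.Defs
import Cfsg.Prelude.Def_LieTypeChar
import Cfsg.Prelude.Def_Spor_J1
import Cfsg.Prelude.Def_Spor_ON

/-!
# Standard subgroups of type `J₁`: definitions

`Mod`, `Dat`: the centraliser data.  `Syl`: a Sylow 2-subgroup of `C(t)`.  `Amb`: the ambient
group.  `Inv`, `Top`, `El`, `Q3`, `Exc`: the levels of the tower above `⟨t⟩ V`.
-/

set_option autoImplicit false

namespace Cfsg.Lib.SJ1

open Subgroup Cfsg.Lib.Gold Cfsg.Lib.Trans Cfsg.Lib.StdSz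

/-- The data in `C(t)` coming from a Borel subgroup `V H` of `L₂(q)`. -/
structure Mod (G : Type*) [Group G] (F : Type*) [Field F] where
  /-- the involution -/
  t : G
  /-- the unipotent subgroup -/
  v : F → G
  /-- the torus -/
  h : Fˣ →* G
  /-- the centraliser of the standard subgroup in `C(t)` -/
  K : Subgroup G
  two : (2 : F) = 0
  big : 4 ≤ Nat.card F
  t_sq : t * t = 1
  t_ne : t ≠ 1
  v_add : ∀ b c, v (b + c) = v b * v c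
  v_inj : Function.Injective v
  t_v : ∀ b, Commute t (v b)
  t_h : ∀ k, Commute t (h k)
  h_v : ∀ (k : Fˣ) (b : F), h k * v b * (h k)⁻¹ = v (k * b)
  semi : ∀ g, Commute g t → g ∈ Ns (StdU3.vsub v v_add) →
    ∃ (k : Fˣ) (σ : F ≃+* F), ∀ b, g * v b * g⁻¹ = v (k * σ b)
  nh : ∀ g, Commute g t → g ∈ Ns (StdU3.vsub v v_add) →
    ∀ k, ∃ (b : F) (k' : Fˣ), g * h k * g⁻¹ = v b * h k'
  ti : ∀ g, Commute g t → ∀ b, g * v b * g⁻¹ ∈ Ns (StdU3.vsub v v_add) →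
    g * v b * g⁻¹ ∈ StdU3.vsub v v_add
  t_K : t ∈ K
  K_t : ∀ c ∈ K, Commute c t
  K_v : ∀ c ∈ K, ∀ b, Commute c (v b)
  K_h : ∀ c ∈ K, ∀ k, Commute c (h k)
  K_n : ∀ g, Commute g t → g ∈ Ns K
  K_cyc : ∀ R ≤ K, IsPGroup 2 R → IsCyclic R
  v_K : ∀ b, v b ∈ K → b = 0
  cent : ∀ g, Commute g t → (∀ b, Commute g (v b)) → ∃ b, ∃ c ∈ K, g = v b * c

variable {G : Type*} [Group G] {F : Type*} [Field F]

namespace Mod

variable (M : Mod G F)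

/-- The unipotent subgroup. -/
def V : Subgroup G := StdU3.vsub M.v M.v_add

/-- `⟨t⟩ × V`. -/
def W : Subgroup G := M.V ⊔ zpowers M.t

/-- The normaliser of `V` in `C(t)`. -/
def B : Subgroup G := C1 M.t ⊓ Ns M.V

/-- The coordinate on `V`. -/
noncomputable def γ (x : G) : F := by
  classical exact if h : ∃ b, x = M.v b then h.choose else 0

theorem mem_V {x : G} : x ∈ M.V ↔ ∃ b, x = M.v b := Iff.rfl

theorem v_mem (b : F) : M.v b ∈ M.V := ⟨b, rfl⟩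

theorem mem_B {g : G} : g ∈ M.B ↔ Commute g M.t ∧ g ∈ Ns M.V := and_congr_left' StdSz.mem_C1

include M in
theorem addF (c : F) : c + c = 0 := by rw [← two_mul, M.two, zero_mul]

include M in
theorem negF (c : F) : -c = c := neg_eq_of_add_eq_zero_left (M.addF c)

include M in
theorem add_eq_zeroF {c d : F} : c + d = 0 ↔ c = d := by rw [add_eq_zero_iff_eq_neg, M.negF]

@[simp] theorem v_zero : M.v 0 = 1 := by
  have := M.v_add 0 0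
  rw [add_zero] at this
  exact mul_eq_left.1 this.symm

theorem v_eq_one {b : F} : M.v b = 1 ↔ b = 0 := by rw [← M.v_zero, M.v_inj.eq_iff]

theorem v_sq (b : F) : M.v b * M.v b = 1 := by rw [← M.v_add, M.addF, M.v_zero]

theorem v_inv (b : F) : (M.v b)⁻¹ = M.v b := inv_eq_of_mul_eq_one_right (M.v_sq b)

theorem v_comm (b c : F) : Commute (M.v b) (M.v c) := by
  rw [Commute, SemiconjBy, ← M.v_add, ← M.v_add, add_comm]

theorem V_sq {x : G} (hx : x ∈ M.V) : x * x = 1 := by obtain ⟨b, rfl⟩ := hx; exact M.v_sq b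

theorem v1_ne : M.v 1 ≠ 1 := fun h => one_ne_zero (M.v_eq_one.1 h)

theorem t_inv : M.t⁻¹ = M.t := inv_eq_of_mul_eq_one_right M.t_sq

theorem tt_mul (x : G) : M.t * (M.t * x) = x := by rw [← mul_assoc, M.t_sq, one_mul]

theorem orderOf_t : orderOf M.t = 2 := orderOf_eq_prime (by rw [sq, M.t_sq]) M.t_ne

theorem t_not_mem_V : M.t ∉ M.V := fun ⟨b, h⟩ =>
  M.t_ne (by rw [h, M.v_K b (h ▸ M.t_K), M.v_zero])

@[simp] theorem γ_v (b : F) : M.γ (M.v b) = b := by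
  have h : ∃ b', M.v b = M.v b' := ⟨b, rfl⟩
  rw [γ, dif_pos h]
  exact (M.v_inj h.choose_spec).symm

theorem v_γ {x : G} (hx : x ∈ M.V) : M.v (M.γ x) = x := by obtain ⟨b, rfl⟩ := hx; rw [γ_v]

theorem γ_add : AddOn M.V M.γ := by
  rintro _ ⟨b, rfl⟩ _ ⟨d, rfl⟩; rw [← M.v_add, γ_v, γ_v, γ_v]

theorem γ_one : M.γ 1 = 0 := by rw [← M.v_zero, γ_v]

theorem mem_Ns_V {g : G} (h : ∀ b, Commute g (M.v b)) [Finite G] : g ∈ Ns M.V :=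
  mem_Ns (by rintro _ ⟨b, rfl⟩; rw [conj_eq_of_commute (h b)]; exact M.v_mem b)

end Mod

/-- The case `K = ⟨t⟩ × O`. -/
structure Dat (G : Type*) [Group G] (F : Type*) [Field F] extends Mod G F where
  /-- the odd part of `K` -/
  O : Subgroup G
  O_odd : Odd (Nat.card O)
  O_le : O ≤ K
  K_dec : ∀ c ∈ K, c ∈ O ∨ t * c ∈ O

/-- A Sylow 2-subgroup of `C(t)` acting on `V` by field automorphisms. -/
structure Syl (M : Mod G F) where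
  /-- the Sylow subgroup -/
  T : Subgroup G
  /-- the action on `V` -/
  σ : G → RingAut F
  syl : IsSylowIn 2 T (C1 M.t)
  W_le : M.W ≤ T
  le_B : T ≤ M.B
  act : ∀ s ∈ T, ∀ b, s * M.v b * s⁻¹ = M.v (σ s b)

/-- The ambient group `G = X ⟨t⟩`. -/
structure Amb (M : Mod G F) (X A : Subgroup G) : Prop where
  normal : X.Normal
  simple : IsSimpleGroup X
  gen : ∀ g, g ∈ X ∨ M.t * g ∈ X
  cX : Cs X = ⊥
  A_le : A ≤ X
  v_A : ∀ b, M.v b ∈ A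
  h_A : ∀ k, M.h k ∈ A
  A_t : A ≤ C1 M.t
  nA : C1 M.t ≤ Ns A
  K_eq : M.K = Cs A ⊓ C1 M.t
  simpleA : IsSimpleGroup A
  eight : Nat.card F = 8
  eleven : 11 ∣ Nat.card A
  dec : ∀ g, Commute g M.t → ∃ x ∈ A, ∃ k ∈ M.K, g = x * k
  c4 : ∀ b c, b ≠ 0 → c ≠ 0 → b ≠ c → ∀ x ∈ A, Commute x (M.v b) → Commute x (M.v c) → x ∈ M.V
  c120 : ∀ c, c ≠ 0 → Nat.card (A ⊓ C1 (M.v c) : Subgroup G) = 120
  ns : ∀ c, c ≠ 0 → ¬ Group.IsSolvable (A ⊓ C1 (M.v c) : Subgroup G)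

/-- A 2-subgroup above `V` inverted by `t`. -/
structure Inv (D : Dat G F) (U : Subgroup G) : Prop where
  two : IsPGroup 2 U
  inv : ∀ u ∈ U, D.t * u * D.t = u⁻¹
  V_le : D.V ≤ U
  t_not : D.t ∉ U
  O_c : ∀ o ∈ D.O, ∀ u ∈ U, Commute o u
  B_le : D.B ≤ Ns U

/-- An abelian subgroup of exponent at least four with `N(Z ⟨t⟩) = Z C(t)`. -/
structure Top (D : Dat G F) (Z : Subgroup G) : Prop where
  two : IsPGroup 2 Z
  comm : ∀ z ∈ Z, ∀ z' ∈ Z, Commute z z'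
  root : ∀ b, ∃ z ∈ Z, z * z = D.v b
  omega : ∀ z ∈ Z, z * z = 1 → z ∈ D.V
  t_not : D.t ∉ Z
  B_le : D.B ≤ Ns Z
  term : ∀ g ∈ Ns (Z ⊔ zpowers D.t), ∃ z ∈ Z, g * D.t * g⁻¹ = z * D.t * z⁻¹

/-- An elementary abelian subgroup of order `q ^ 2` on which `t` acts freely. -/
structure El (D : Dat G F) where
  /-- the subgroup -/
  Z : Subgroup G
  /-- the coordinate on `Z / V` -/
  p : G → F
  sq : ∀ z ∈ Z, z * z = 1
  V_le : D.V ≤ Z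
  p_add : AddOn Z p
  p_surj : ∀ b, ∃ z ∈ Z, p z = b
  ker : ∀ z ∈ Z, p z = 0 → z ∈ D.V
  t_Z : ∀ z ∈ Z, D.t * z * D.t = z * D.v (p z)
  B_le : D.B ≤ Ns Z

/-- A special group of order `q ^ 3` on which `t` acts as a reflection. -/
structure Q3 (D : Dat G F) where
  /-- the subgroup -/
  P : Subgroup G
  /-- the coordinate along the reflection vector -/
  r : G → F
  /-- the second coordinate -/
  s : G → F
  /-- the squaring constant -/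
  ν : F
  r_add : AddOn P r
  s_add : AddOn P s
  V_le : D.V ≤ P
  surj : ∀ a b, ∃ g ∈ P, r g = a ∧ s g = b
  ker : ∀ g ∈ P, r g = 0 → s g = 0 → g ∈ D.V
  rs_v : ∀ b, r (D.v b) = 0 ∧ s (D.v b) = 0
  cV : ∀ g ∈ P, ∀ b, Commute g (D.v b)
  sq : ∀ g ∈ P, g * g = D.v (r g * r g + r g * s g + ν * (s g * s g))
  t_P : ∀ g ∈ P, r (D.t * g * D.t) = r g + s g ∧ s (D.t * g * D.t) = s g
  H_P : ∀ k : Fˣ, ∃ m : F, m * m = k ∧ ∀ g ∈ P,
    r (D.h k * g * (D.h k)⁻¹) = m * r g ∧ s (D.h k * g * (D.h k)⁻¹) = m * s g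
  B_le : D.B ≤ Ns P

/-- The normaliser of `U ⟨t⟩`. -/
abbrev Mod.NU (M : Mod G F) (U : Subgroup G) : Subgroup G := Ns (U ⊔ zpowers M.t)

/-- The exceptional configuration: `q = 8` and `N(U ⟨t⟩)` induces `L₃(2)` on `V`. -/
structure Exc (D : Dat G F) (U : Subgroup G) : Prop where
  inv : Inv D U
  eight : Nat.card F = 8
  N_V : D.NU U ≤ Ns D.V
  N_U : D.NU U ≤ Ns U
  cV : ∀ g ∈ D.NU U, (∀ b, Commute g (D.v b)) →
    ∃ u ∈ U, ∃ o ∈ D.O, g = u * o ∨ g = D.t * (u * o)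
  lin : ∀ L : F ≃+ F, ∃ g ∈ D.NU U ⊓ Cs D.O, ∀ b, g * D.v b * g⁻¹ = D.v (L b)
  trans : ∀ u ∈ U, ∃ g ∈ D.NU U ⊓ Cs D.O, g * D.t * g⁻¹ = D.t * u

/-- A Sylow 2-subgroup of `G` in the exceptional configuration. -/
structure ExS (D : Dat G F) (X U : Subgroup G) where
  /-- the Sylow subgroup -/
  S : Sylow 2 G
  exc : Exc D U
  le_S : U ⊔ zpowers D.t ≤ S
  S_le : (S : Subgroup G) ≤ D.NU U ⊓ Cs D.O
  card : Nat.card (S : Subgroup G) = 16 * Nat.card U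
  cls : ∀ g, g * D.t * g⁻¹ ∈ (S : Subgroup G) →
    D.t * (g * D.t * g⁻¹) ∈ U ∧ ∃ s ∈ (S : Subgroup G), g * D.t * g⁻¹ = s * D.t * s⁻¹
  t_X : D.t ∉ X
  U_X : U ≤ X

/-- Generators of the Sylow 2-subgroup in the case `U = V`. -/
structure Ex1 (D : Dat G F) (X : Subgroup G) extends ExS D X D.V where
  /-- basis -/
  e1 : F
  /-- basis -/
  e2 : F
  /-- basis -/
  e3 : F
  /-- a transvection with centre `e1` -/
  x1 : G
  /-- a transvection with centre `e2` -/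
  x2 : G
  /-- a transvection with centre `e1 + e2` -/
  w : G
  span : ∀ b, b = 0 ∨ b = e1 ∨ b = e2 ∨ b = e1 + e2 ∨ b = e3 ∨ b = e3 + e1 ∨ b = e3 + e2 ∨
    b = e3 + e1 + e2
  e_ne : e1 ≠ 0 ∧ e2 ≠ 0 ∧ e1 ≠ e2 ∧ e3 ≠ 0 ∧ e3 ≠ e1 ∧ e3 ≠ e2 ∧ e3 ≠ e1 + e2
  x1_mem : x1 ∈ (S : Subgroup G) ⊓ X
  w_mem : w ∈ (S : Subgroup G) ⊓ X
  comm : Commute x1 x2
  x1_e1 : Commute x1 (D.v e1)
  x1_e2 : Commute x1 (D.v e2)
  x1_e3 : x1 * D.v e3 * x1⁻¹ = D.v (e3 + e1)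
  w_sq : w * w = 1
  w_x1 : w * x1 * w = x2
  w_e1 : w * D.v e1 * w = D.v e2
  w_e3 : Commute w (D.v e3)
  sq : x1 * x1 = 1 ∨ x1 * x1 = D.v e1
  t_x : D.t * x1 * D.t = x1 * D.v e2 ∧ D.t * x2 * D.t = x2 * D.v (e1 + e2) ∨
    D.t * x1 * D.t = x1 * D.v (e1 + e2) ∧ D.t * x2 * D.t = x2 * D.v e1
  t_w : D.t * w * D.t = w * D.v e3 ∨ D.t * w * D.t = w * D.v (e3 + e1 + e2)

/-- `V` is strongly closed in a Sylow 2-subgroup. -/
def ExS.SV {D : Dat G F} {X U : Subgroup G} (E : ExS D X U) : Prop :=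
  IsStronglyClosed D.V (E.S : Subgroup G)

/-- Two conjugates of `U ≅ ℤ₄³` meeting in a cyclic group of order four. -/
structure Ex2 (D : Dat G F) (X U : Subgroup G) extends ExS D X U where
  /-- the conjugating element -/
  g : G
  /-- the common element -/
  u : G
  /-- its square -/
  c : F
  four : ∀ x ∈ U, x ^ 4 = 1
  c_ne : c ≠ 0
  u_mem : u ∈ U
  u_sq : u * u = D.v c
  inf : U ⊓ cj g U = zpowers u
  V_le : cj g D.V ≤ S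
  cen : ∀ y ∈ cj g D.V, ∀ b, y * D.v b * y⁻¹ = D.v b ∨ y * D.v b * y⁻¹ = D.v (b + c)
  max : ∀ g₁ g₂ : G, (∃ y ∈ cj g₂ D.V, y ∈ Ns (cj g₁ U) ∧ y ∉ cj g₁ U) →
    Nat.card (cj g₁ U ⊓ cj g₂ U : Subgroup G) ≤ 4
  max' : ∀ g₁ g₂ : G, (∃ y ∈ cj g₂ D.V, y ∈ Ns (cj g₁ U) ∧ y ∉ cj g₁ U) →
    ∀ x ∈ cj g₁ U ⊓ cj g₂ U, ∀ y ∈ cj g₁ U ⊓ cj g₂ U, x * x = 1 → y * y = 1 → x ≠ 1 → y ≠ 1 → x = y
  /-- the odd part of the centraliser of `V` -/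
  O1 : Subgroup G
  O1_odd : Odd (Nat.card O1)
  O1_U : O1 ≤ Cs U
  O1_N : Ns D.V ≤ Ns O1
  O1_c : ∀ g ∈ X, (∀ b, Commute g (D.v b)) → ∃ u ∈ U, ∃ o ∈ O1, g = u * o
  O1_n : ∀ g ∈ Ns D.V, ∃ n ∈ D.NU U ⊓ Cs D.O, ∃ o ∈ O1, g = n * o

/-- `U V₂`, a Sylow 2-subgroup of the centraliser of `u` in `X`. -/
def Ex2.P {D : Dat G F} {X U : Subgroup G} (E : Ex2 D X U) : Subgroup G := U ⊔ cj E.g D.V

/-- `T / ⟨u⟩` is like the Sylow 2-subgroup of `L₃(4)`. -/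
structure PT (T F₁ F₂ V : Subgroup G) (u : G) : Prop where
  ord : orderOf u = 4
  u_mem : u ∈ V
  cen : ∀ x ∈ T, Commute x u
  sq₁ : ∀ x ∈ F₁, x * x ∈ zpowers u
  sq₂ : ∀ x ∈ F₂, x * x ∈ zpowers u
  card₁ : Nat.card F₁ = 64
  card₂ : Nat.card F₂ = 64
  cardV : Nat.card V = 16
  inf : F₁ ⊓ F₂ = V
  sup : F₁ ⊔ F₂ = T
  comm : ∀ x ∈ F₁, ∀ y ∈ F₂, x * y * x⁻¹ * y⁻¹ ∈ V
  nondeg : ∀ x ∈ F₁, ∀ y ∈ F₂, x * y * x⁻¹ * y⁻¹ ∈ zpowers u → x ∈ V ∨ y ∈ V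
  invol : ∀ x ∈ T, x * x ∈ zpowers u → x ∈ F₁ ∨ x ∈ F₂

end Cfsg.Lib.SJ1
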