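import Cfsg.Agent.SJ1.Defs
import Cfsg.Agent.Bender.TwoRank
import Cfsg.Agent.Solv.ActionTransport

/-!
# Standard subgroups of type `L₂(2ᵃ)`: linear algebra on a group of order eight
-/

set_option autoImplicit false

namespace Cfsg.Lib.SJ1.ExB

open Subgroup

section Lin

variable {F : Type*} [Field F] [Finite F]

/-- Three independent vectors. -/
def Ind (e1 e2 e3 : F) : Prop :=
  e1 ≠ 0 ∧ e2 ≠ 0 ∧ e1 ≠ e2 ∧ e3 ≠ 0 ∧ e3 ≠ e1 ∧ e3 ≠ e2 ∧ e3 ≠ e1 + e2

omit [Finite F] in
theorem add_self (two : (2 : F) = 0) (a : F) : a + a = 0 := by rw [← two_mul, two, zero_mul]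

omit [Finite F] in
theorem add_zero_iff (two : (2 : F) = 0) {a b : F} : a + b = 0 ↔ a = b := by
  rw [add_eq_zero_iff_eq_neg, neg_eq_of_add_eq_zero_left (add_self two b)]

theorem exists_coord (two : (2 : F) = 0) (h8 : Nat.card F = 8) {e1 e2 e3 : F} (h : Ind e1 e2 e3) :
    ∃ φ : ZMod 2 × ZMod 2 × ZMod 2 ≃+ F, φ (1, 0, 0) = e1 ∧ φ (0, 1, 0) = e2 ∧ φ (0, 0, 1) = e3 := by
  haveI : CharP F 2 := CharTwo.of_one_ne_zero_of_two_eq_zero one_ne_zero two
  let c : ZMod 2 →+* F := ZMod.castHom dvd_rfl F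
  let φ : ZMod 2 × ZMod 2 × ZMod 2 →+ F := AddMonoidHom.mk'
    (fun p => c p.1 * e1 + c p.2.1 * e2 + c p.2.2 * e3) fun p q => by
      simp only [Prod.fst_add, Prod.snd_add, map_add]; ring
  obtain ⟨h1, h2, h3, h4, h5, h6, h7⟩ := h
  have z : ∀ a : ZMod 2, a = 0 ∨ a = 1 := by decide
  have hi : Function.Injective φ := by
    refine (injective_iff_map_eq_zero φ).2 ?_
    rintro ⟨a, b, d⟩ e
    change c a * e1 + c b * e2 + c d * e3 = 0 at e
    rcases z a with rfl | rfl <;> rcases z b with rfl | rfl <;> rcases z d with rfl | rfl <;>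
      simp only [map_zero, map_one, zero_mul, one_mul, add_zero, zero_add, add_zero_iff two] at e
    · rfl
    · exact absurd e h4
    · exact absurd e h2
    · exact absurd e.symm h6
    · exact absurd e h1
    · exact absurd e.symm h5
    · exact absurd e h3
    · exact absurd e.symm h7
  refine ⟨AddEquiv.ofBijective φ (hi.bijective_of_nat_card_le (by simp [h8])), ?_, ?_, ?_⟩ <;>
    simp [φ]

theorem span (two : (2 : F) = 0) (h8 : Nat.card F = 8) {e1 e2 e3 : F} (h : Ind e1 e2 e3) (b : F) :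
    b = 0 ∨ b = e1 ∨ b = e2 ∨ b = e1 + e2 ∨ b = e3 ∨ b = e3 + e1 ∨ b = e3 + e2 ∨
      b = e3 + e1 + e2 := by
  obtain ⟨φ, rfl, rfl, rfl⟩ := exists_coord two h8 h
  obtain ⟨p, rfl⟩ := φ.surjective b
  simp only [← map_add, ← map_zero φ, φ.injective.eq_iff]
  revert p
  decide

theorem exists_equiv (two : (2 : F) = 0) (h8 : Nat.card F = 8) {e1 e2 e3 f1 f2 f3 : F}
    (h : Ind e1 e2 e3) (h' : Ind f1 f2 f3) :
    ∃ L : F ≃+ F, L e1 = f1 ∧ L e2 = f2 ∧ L e3 = f3 := by
  obtain ⟨φ, rfl, rfl, rfl⟩ := exists_coord two h8 h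
  obtain ⟨ψ, rfl, rfl, rfl⟩ := exists_coord two h8 h'
  exact ⟨φ.symm.trans ψ, by simp, by simp, by simp⟩

theorem ext8 (two : (2 : F) = 0) (h8 : Nat.card F = 8) {e1 e2 e3 : F} (h : Ind e1 e2 e3)
    {P : F → Prop} (h0 : P 0) (ha : ∀ a b, P a → P b → P (a + b)) (h1 : P e1) (h2 : P e2)
    (h3 : P e3) (b : F) : P b := by
  rcases span two h8 h b with rfl | rfl | rfl | rfl | rfl | rfl | rfl | rfl
  exacts [h0, h1, h2, ha _ _ h1 h2, h3, ha _ _ h3 h1, ha _ _ h3 h2, ha _ _ (ha _ _ h3 h1) h2]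

omit [Finite F] in
theorem chain {n : F →+ F} (h4 : ∀ b, n (n (n (n b))) = 0) {e : F} (he : n (n e) ≠ 0) :
    Ind (n (n e)) (n e) e := by
  refine ⟨he, fun h => he (by rw [h, map_zero]), fun h => he ?_, fun h => he (by simp [h]),
    fun h => he ?_, fun h => he ?_, fun h => he ?_⟩
  · rw [← h, ← h]; exact h4 e
  · rw [h]; exact h4 e
  · rw [h, h]; exact h4 e
  · have h3 : n (n (n e)) = 0 := by rw [h]; simp only [map_add, h4, add_zero, map_zero]
    rw [h]; simp only [map_add, h4, h3, add_zero, map_zero]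

theorem nil8 (two : (2 : F) = 0) (h8 : Nat.card F = 8) {n : F →+ F}
    (h4 : ∀ b, n (n (n (n b))) = 0) {e : F} (he : n (n e) ≠ 0) :
    (∀ b, n b = 0 → b = 0 ∨ b = n (n e)) ∧ ∀ m : F →+ F, (∀ b, m (n b) = n (m b)) →
      (∀ b, m (m (m (m b))) = 0) → (∀ b, m (m b) = 0) ∨ ∀ b, m (m b) = n (n b) := by
  have h3 : n (n (n e)) = 0 := by
    by_contra h
    rcases span two h8 (chain h4 h) e with k | k | k | k | k | k | k | k <;>
      exact h (by rw [k]; simp only [map_add, map_zero, h4, add_zero])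
  have hI := chain h4 he
  have ker : ∀ b, n b = 0 → b = 0 ∨ b = n (n e) := fun b hb => by
    rcases span two h8 hI b with k | k | k | k | k | k | k | k <;> rw [k] at hb <;>
      try simp only [map_add, h3, add_zero, zero_add, add_zero_iff two] at hb
    exacts [Or.inl k, Or.inr k, absurd hb he, absurd hb he, absurd hb hI.2.1, absurd hb hI.2.1,
      absurd hb.symm hI.2.2.1, absurd hb.symm hI.2.2.1]
  refine ⟨ker, fun m hc m4 => ?_⟩
  have m1 : m (n (n e)) = 0 := by
    refine (ker _ (by rw [← hc, h3, map_zero])).resolve_right fun k => he ?_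
    rw [← k, ← k, ← k, ← k]; exact m4 _
  have m2 : m (m (n e)) = 0 := by
    rcases ker (m (n e)) (by rw [← hc, m1]) with k | k <;> rw [k]
    exacts [map_zero _, m1]
  rcases ker (m (m e)) (by rw [← hc, ← hc, m2]) with k | k
  · exact Or.inl (ext8 two h8 hI (by simp) (fun a b ha hb => by simp [ha, hb]) (by simp [m1]) m2 k)
  · exact Or.inr (ext8 two h8 hI (by simp) (fun a b ha hb => by simp [ha, hb]) (by simp [m1, h4])
      (by rw [m2, h3]) k)

end Lin

theorem core {M : Type*} [AddCommGroup M] (α β : M →+ M) {e1 e2 e3 w x1 x2 x3 : M}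
    (sp : ∀ m, m + m = 0 → m = 0 ∨ m = e1 ∨ m = e2 ∨ m = e1 + e2 ∨ m = e3 ∨ m = e3 + e1 ∨
      m = e3 + e2 ∨ m = e3 + e1 + e2)
    (n1 : e1 ≠ 0) (n2 : e2 ≠ 0) (n3 : e1 ≠ e2) (s1 : e1 + e1 = 0) (s2 : e2 + e2 = 0)
    (a1 : α e1 = e1) (a2 : α e2 = e2) (a3 : α e3 = e3 + e1) (b1 : β e1 = e1) (b2 : β e2 = e2)
    (b3 : β e3 = e3 + e2) (aa : ∀ m, α (α m) = m) (bb : ∀ m, β (β m) = m)
    (ab : ∀ m, α (β (α (β m))) = m) (hw : w + w = e3) (h1 : x1 + x1 = e2) (k1 : α x1 = x1)
    (h2 : x2 + x2 = e1 + e2) (k2 : β x2 = x2) (h3 : x3 + x3 = e1) (k3 : α (β x3) = x3) : False := by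
  have tv : ∀ (γ : M →+ M) (c : M), γ e1 = e1 → γ e2 = e2 → γ e3 = e3 + c → ∀ m, m + m = 0 →
      γ m - m = 0 ∨ γ m - m = c := fun γ c g1 g2 g3 m hm => by
    rcases sp m hm with k | k | k | k | k | k | k | k <;> rw [k] <;>
      simp only [map_add, map_zero, g1, g2, g3, sub_self, true_or] <;> exact Or.inr (by abel)
  have hc : β (α w) = α (β w) := by
    have := ab (β (α w))
    rw [bb, aa] at this
    exact this.symm
  have w1 : α w + α w = e3 + e1 := by rw [← map_add, hw, a3]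
  have w2 : β w + β w = e3 + e2 := by rw [← map_add, hw, b3]
  have t1 := tv α e1 a1 a2 a3 (x1 - (β w - w)) (by linear_combination (norm := abel) h1 - w2 + hw)
  have t2 := tv β e2 b1 b2 b3 (x2 - (α w - w) - (β w - w))
    (by linear_combination (norm := abel) h2 - w1 - w2 + hw + hw)
  have t3 := tv (α.comp β) (e1 + e2) (by simp [a1, b1]) (by simp [a2, b2])
    (by simp [b3, a3, a2, add_assoc]) (x3 - (α w - w))
    (by linear_combination (norm := abel) h3 - w1 + hw)
  simp only [map_sub, AddMonoidHom.comp_apply, k1, k2, k3, hc, aa, bb] at t1 t2 t3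
  have d1 : α (β w) - α w - β w + w = 0 ∨ α (β w) - α w - β w + w = e1 :=
    t1.imp (fun k => by linear_combination (norm := abel) -k)
      fun k => by linear_combination (norm := abel) -k - s1
  have d2 : α (β w) - α w - β w + w = e2 ∨ α (β w) - α w - β w + w = 0 :=
    t2.imp (fun k => by linear_combination (norm := abel) -k + w2 - hw)
      fun k => by linear_combination (norm := abel) -k + w2 - hw
  have d3 : α (β w) - α w - β w + w = e1 ∨ α (β w) - α w - β w + w = e2 :=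
    t3.imp (fun k => by linear_combination (norm := abel) k - w1 + hw - s1)
      fun k => by linear_combination (norm := abel) k - w1 + hw
  generalize α (β w) - α w - β w + w = d at d1 d2 d3
  rcases d1 with rfl | rfl
  · exact d3.elim (fun k => n1 k.symm) fun k => n2 k.symm
  · exact d2.elim n3 n1

/-- Commuting involutory automorphisms of a group of odd order. -/
theorem four_aut {K : Type*} [Group K] [Finite K] (hK : Odd (Nat.card K)) {a b : MulAut K}
    (a2 : a * a = 1) (b2 : b * b = 1) (hc : a * b = b * a) (h1 : ∀ x, a x = x → b x = x)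
    (h2 : ∀ x, a (b x) = x → b x = x) (x : K) : b x = x := by
  by_cases a1 : a = 1
  · exact h1 x (by rw [a1]; rfl)
  by_cases b1 : b = 1
  · rw [b1]; rfl
  by_cases ab : a = b
  · exact h2 x (by rw [ab, ← MulAut.mul_apply, b2]; rfl)
  obtain ⟨k1, k2, k3, k4⟩ := Bender.four_group (Bender.orderOf_eq_two a1 a2)
    (Bender.orderOf_eq_two b1 b2) ab hc
  have := Solv.Act.le_of_forall_fix_zpowers (φ := MonoidHom.id (MulAut K)) (H := ⊤) k2
    (Solv.Act.inv_top _) (Solv.coprime_card_of_isPGroup k4 (by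
      rw [card_top]; exact Nat.coprime_two_right.2 hK))
    (U := Solv.Act.fix (MonoidHom.id (MulAut K)) (zpowers b)) fun c hc' c1 y hy => by
      have hy' := Solv.Act.mem_fix_zpowers.1 hy.2
      refine Solv.Act.mem_fix_zpowers.2 ?_
      rcases Bender.mem_closure_pair_of_commute a2 b2 hc hc' with rfl | rfl | rfl | rfl
      exacts [absurd rfl c1, h1 y hy', hy', h2 y hy']
  exact Solv.Act.mem_fix_zpowers.1 (this trivial)

end Cfsg.Lib.SJ1.ExB
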